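import Mathlib
import Cfsg.Agent.Lib.Helper18.SLMDefs

/-!
# Project SLM (S2332, architect helper18), piece ARITHB3 (helper51)

The base case `k = 1` of the integrality argument: for a prime power `q ∉ {2, 4}`,
`(q - 1) + (q² - 1) = (q - 1)(q + 2)` does not divide `(q³ - 1)(q + 1)(q - 2)`
(it would force `q + 2 ∣ 12`, i.e. `q ∈ {4, 10}`).
-/

set_option autoImplicit false

namespace Cfsg.Agent.Lib.Helper18.SLM

open Matrix

universe u

variable {F : Type u} [Field F] [Fintype F]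

theorem arithb3_not_pp10 : ¬ IsPrimePow 10 := by
  rw [isPrimePow_iff_unique_prime_dvd]
  rintro ⟨p, -, hp⟩
  have a := hp 2 ⟨Nat.prime_two, by norm_num⟩
  have b := hp 5 ⟨by norm_num, by norm_num⟩
  omega

-- piece ARITHB3
theorem arith_b3 (q : ℕ) (hpp : IsPrimePow q) (h2 : q ≠ 2) (h4 : q ≠ 4) :
    ¬ ((q - 1) + (q ^ 2 - 1)) ∣ (q ^ 3 - 1) * wsum q 2 * ((q - 1) - 1) := by
  have hq1 : q ≠ 1 := hpp.ne_one
  have hq0 : q ≠ 0 := hpp.ne_zero
  obtain ⟨r, rfl⟩ : ∃ r, q = r + 3 := ⟨q - 3, by omega⟩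
  intro h
  have hw : wsum (r + 3) 2 = r + 4 := by
    unfold wsum
    rw [Finset.sum_range_succ, Finset.sum_range_one, pow_zero, pow_one]
    ring
  have a : r + 3 - 1 = r + 2 := by omega
  have b : (r + 3) ^ 2 - 1 = (r + 2) * (r + 4) := by
    have h1 : (r + 3) ^ 2 = (r + 2) * (r + 4) + 1 := by ring
    omega
  have c : (r + 3) ^ 3 - 1 = (r + 2) * (r ^ 2 + 7 * r + 13) := by
    have h1 : (r + 3) ^ 3 = (r + 2) * (r ^ 2 + 7 * r + 13) + 1 := by ring
    omega
  have d : r + 2 - 1 = r + 1 := by omega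
  rw [a, b, c, hw, d] at h
  have e5 : (r + 2) + (r + 2) * (r + 4) = (r + 2) * (r + 5) := by ring
  have e6 : (r + 2) * (r ^ 2 + 7 * r + 13) * (r + 4) * (r + 1) =
      (r + 2) * ((r + 5) * (r ^ 3 + 7 * r ^ 2 + 17 * r + 8) + 12) := by ring
  rw [e5, e6] at h
  have h' := Nat.dvd_of_mul_dvd_mul_left (by omega : 0 < r + 2) h
  have h12 : r + 5 ∣ 12 := (Nat.dvd_add_right (dvd_mul_right _ _)).mp h'
  have hle : r + 5 ≤ 12 := Nat.le_of_dvd (by norm_num) h12
  have hr : r ≤ 7 := by omega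
  interval_cases r
  · norm_num at h12
  · exact h4 rfl
  · norm_num at h12
  · norm_num at h12
  · norm_num at h12
  · norm_num at h12
  · norm_num at h12
  · exact arithb3_not_pp10 hpp

end Cfsg.Agent.Lib.Helper18.SLM
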