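import Mathlib
import Cfsg.Prelude.Def_Classical
import Cfsg.Agent.Lib.Helper18.UEDefs
import Cfsg.Agent.Lib.Helper18.UODefs

/-!
# Project UO (helper18, S2334), piece INDEP2 (helper51)

Families of simultaneous eigenvectors, linearly independent inside each simultaneous eigenspace,
with pairwise distinct characters: the total number of vectors is at most the dimension.
-/

set_option autoImplicit false

namespace Cfsg.Agent.Lib.Helper18.UE

open Matrix

universe u

variable {F : Type u} [Field F] {m : ℕ}

/-- A vanishing finite sum of simultaneous eigenvectors with pairwise distinct characters has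
all its terms zero. -/
private theorem uoindep2_zero_sum {V : Type*} [AddCommGroup V] [Module ℂ V]
    {ι A : Type*} (T : A → V →ₗ[ℂ] V) (χ : ι → A → ℂ)
    (hχ : Function.Injective χ) (s : Finset ι) :
    ∀ y : ι → V, (∀ i a, T a (y i) = χ i a • y i) → ∑ i ∈ s, y i = 0 → ∀ i ∈ s, y i = 0 := by
  classical
  induction s using Finset.induction_on with
  | empty =>
    intro y _ _ i hi
    exact absurd hi (Finset.notMem_empty i)
  | insert j s hj ih =>
    intro y hy hsum
    rw [Finset.sum_insert hj] at hsum
    have key : ∀ i ∈ s, y i = 0 := by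
      intro i hi
      have hij : i ≠ j := fun h' => hj (h' ▸ hi)
      obtain ⟨a, ha⟩ : ∃ a, χ i a ≠ χ j a := by
        by_contra hcon
        push Not at hcon
        exact hij (hχ (funext hcon))
      have h2 := congrArg (T a) hsum
      rw [map_add, map_sum, map_zero, hy j a] at h2
      have h3 : ∑ k ∈ s, (T a) (y k) = ∑ k ∈ s, χ k a • y k :=
        Finset.sum_congr rfl fun k _ => hy k a
      rw [h3] at h2
      have h4 : χ j a • (y j + ∑ k ∈ s, y k) = 0 := by rw [hsum, smul_zero]
      rw [smul_add, Finset.smul_sum] at h4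
      have h5 : ∑ k ∈ s, (χ k a - χ j a) • y k = 0 := by
        have : ∑ k ∈ s, (χ k a - χ j a) • y k =
            (χ j a • y j + ∑ k ∈ s, χ k a • y k) - (χ j a • y j + ∑ k ∈ s, χ j a • y k) := by
          rw [add_sub_add_left_eq_sub, ← Finset.sum_sub_distrib]
          exact Finset.sum_congr rfl fun k _ => sub_smul _ _ _
        rw [this, h2, h4, sub_zero]
      have h6 := ih (fun k => (χ k a - χ j a) • y k) (fun k b => by
        rw [map_smul, hy k b, smul_comm]) h5 i hi
      have h7 : χ i a - χ j a ≠ 0 := sub_ne_zero.mpr ha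
      exact (smul_eq_zero.mp h6).resolve_left h7
    intro i hi
    rcases Finset.mem_insert.mp hi with rfl | hi'
    · have : ∑ k ∈ s, y k = 0 := Finset.sum_eq_zero key
      rwa [this, add_zero] at hsum
    · exact key i hi'

-- piece INDEP2
theorem card_mul_le_finrank_of_eigen {V : Type*} [AddCommGroup V] [Module ℂ V]
    [FiniteDimensional ℂ V] {ι A : Type*} [Finite ι] (T : A → V →ₗ[ℂ] V) (χ : ι → A → ℂ)
    (hχ : Function.Injective χ) (d : ℕ) (w : ι → Fin d → V)
    (hw : ∀ i j a, T a (w i j) = χ i a • w i j) (hli : ∀ i, LinearIndependent ℂ (w i)) :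
    Nat.card ι * d ≤ Module.finrank ℂ V := by
  classical
  have : Fintype ι := Fintype.ofFinite ι
  have hLI : LinearIndependent ℂ (fun ij : ι × Fin d => w ij.1 ij.2) := by
    rw [Fintype.linearIndependent_iff]
    intro g hg
    rw [Fintype.sum_prod_type] at hg
    have hy : ∀ i a, T a (∑ j, g (i, j) • w i j) = χ i a • ∑ j, g (i, j) • w i j := by
      intro i a
      rw [map_sum, Finset.smul_sum]
      refine Finset.sum_congr rfl fun j _ => ?_
      rw [map_smul, hw i j a, smul_comm]
    have hz := uoindep2_zero_sum T χ hχ Finset.univ (fun i => ∑ j, g (i, j) • w i j) hy hg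
    rintro ⟨i, j⟩
    exact Fintype.linearIndependent_iff.mp (hli i) (fun j => g (i, j)) (hz i (Finset.mem_univ i)) j
  have h1 := hLI.fintype_card_le_finrank
  rw [Fintype.card_prod, Fintype.card_fin] at h1
  rwa [Nat.card_eq_fintype_card]

end Cfsg.Agent.Lib.Helper18.UE
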