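import Mathlib
import Cfsg.Agent.Lib.Helper51.SpFrames
import Cfsg.Agent.S2166

/-!
# Centralisers of involutions of `Sp_2m(q)`, `q` even, through normal families (helper51)

Given a nil-square self-adjoint `N` with a normal family `w` (as produced by
`Cfsg.Agent.S2166.normal_alt` / `normal_na`), the centraliser of `N` in the symplectic group has
order `|O(P)| * |pointwise stabiliser of the frame N w|`, where `O(P) = {b | b P bᵀ = P}` for the
permutation matrix `P` of the involution `σ` of the index set.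
-/

set_option autoImplicit false
set_option linter.unusedSectionVars false

namespace Cfsg.Agent.Lib.Helper51.SpCent

open Module Matrix Cfsg.Agent.Lib.Helper18 Cfsg.Agent.Lib.Helper51.SpFrames

section perm

variable {F : Type*} [Field F] {ι : Type*} [Fintype ι] [DecidableEq ι]

/-- The permutation matrix of `σ`. -/
def Pm (F : Type*) [Field F] (σ : ι → ι) : Matrix ι ι F := Matrix.of fun i j => if j = σ i then 1 else 0

theorem Pm_apply (σ : ι → ι) (i j : ι) : Pm F σ i j = if j = σ i then 1 else 0 := rfl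

theorem Pm_transpose (σ : ι → ι) (hσ : ∀ i, σ (σ i) = i) : (Pm F σ)ᵀ = Pm F σ := by
  ext i j
  rw [Matrix.transpose_apply, Pm_apply, Pm_apply]
  by_cases h : j = σ i
  · rw [if_pos h, if_pos (by rw [h, hσ])]
  · rw [if_neg h, if_neg (fun h' => h (by rw [h', hσ]))]

theorem Pm_mul_self (σ : ι → ι) (hσ : ∀ i, σ (σ i) = i) : Pm F σ * Pm F σ = 1 := by
  ext i j
  rw [Matrix.mul_apply, Matrix.one_apply]
  simp only [Pm_apply]
  rw [Finset.sum_eq_single (σ i)]
  · rw [if_pos rfl, one_mul, hσ]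
    by_cases h : i = j
    · rw [if_pos h, if_pos h.symm]
    · rw [if_neg h, if_neg (fun h' => h h'.symm)]
  · intro k _ hk
    rw [if_neg hk, zero_mul]
  · intro h
    exact absurd (Finset.mem_univ _) h

theorem mul_Pm_apply (σ : ι → ι) (b c : Matrix ι ι F) (i j : ι) :
    (b * Pm F σ * c) i j = ∑ l, b i l * c (σ l) j := by
  rw [Matrix.mul_assoc, Matrix.mul_apply]
  apply Finset.sum_congr rfl
  intro l _
  congr 1
  rw [Matrix.mul_apply]
  simp only [Pm_apply, ite_mul, one_mul, zero_mul]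
  rw [Finset.sum_ite_eq']
  simp

theorem orth_comm (σ : ι → ι) (hσ : ∀ i, σ (σ i) = i) (b : Matrix ι ι F)
    (h : bᵀ * Pm F σ * b = Pm F σ) : b * Pm F σ * bᵀ = Pm F σ := by
  have h1 : (Pm F σ * bᵀ * Pm F σ) * b = 1 := by
    rw [Matrix.mul_assoc, Matrix.mul_assoc, ← Matrix.mul_assoc bᵀ, h, Pm_mul_self σ hσ]
  have h2 : b * (Pm F σ * bᵀ * Pm F σ) = 1 := mul_eq_one_comm.mp h1
  calc b * Pm F σ * bᵀ = b * Pm F σ * bᵀ * (Pm F σ * Pm F σ) := by
        rw [Pm_mul_self σ hσ, Matrix.mul_one]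
    _ = (b * (Pm F σ * bᵀ * Pm F σ)) * Pm F σ := by simp only [Matrix.mul_assoc]
    _ = Pm F σ := by rw [h2, Matrix.one_mul]

end perm

section main

variable {F : Type*} [Field F] [CharP F 2] {m : ℕ}
variable {ι : Type*} [Fintype ι] [DecidableEq ι]

theorem sB_symm (u v : Fin m ⊕ Fin m → F) : sympB m u v = sympB m v u := by
  rw [← (sympB_isAlt m).neg_eq u v, CharTwo.neg_eq]

/-- The data of a normal family for `N`. -/
structure NF (σ : ι → ι) (N : (Fin m ⊕ Fin m → F) →ₗ[F] (Fin m ⊕ Fin m → F))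
    (w : ι → (Fin m ⊕ Fin m → F)) : Prop where
  hσ : ∀ i, σ (σ i) = i
  hadj : ∀ x y, sympB m (N x) y = sympB m x (N y)
  hN : ∀ x, N (N x) = 0
  hv : ∀ i j, sympB m (w i) (N (w j)) = if j = σ i then 1 else 0
  hr : ∀ x y, sympB m (x - ∑ i, sympB m x (N (w (σ i))) • w i) (N y) = 0

variable {σ : ι → ι} {N : (Fin m ⊕ Fin m → F) →ₗ[F] (Fin m ⊕ Fin m → F)}
  {w : ι → (Fin m ⊕ Fin m → F)}

theorem NF.star (h : NF σ N w) (z : Fin m ⊕ Fin m → F) :
    N z = ∑ i, sympB m z (N (w (σ i))) • N (w i) :=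
  Cfsg.Agent.S2166.normal_kill (sympB_nondegenerate m) h.hadj w
    (fun x i => sympB m x (N (w (σ i)))) h.hr z

theorem NF.iso (h : NF σ N w) (i j : ι) : sympB m (N (w i)) (N (w j)) = 0 := by
  rw [h.hadj, h.hN, map_zero]

theorem NF.li (h : NF σ N w) : LinearIndependent F (fun i => N (w i)) := by
  rw [linearIndependent_iff']
  intro s g hg j hj
  have h1 := congrArg (fun z => sympB m (w (σ j)) z) hg
  simp only [map_sum, map_smul, smul_eq_mul, map_zero] at h1
  rw [Finset.sum_eq_single j] at h1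
  · rwa [h.hv, if_pos (h.hσ j).symm, mul_one] at h1
  · intro i _ hij
    rw [h.hv, if_neg (fun h' => hij (by rw [h', h.hσ])), mul_zero]
  · intro hni
    exact absurd hj hni

theorem NF.isFr (h : NF σ N w) : IsFr (fun i => N (w i)) := ⟨h.li, h.iso⟩

theorem NF.coeff (h : NF σ N w) (c c' : ι → F)
    (hc : ∑ i, c i • N (w i) = ∑ i, c' i • N (w i)) : c = c' := by
  funext i
  have h1 : ∑ i, (c i - c' i) • N (w i) = 0 := by
    simp only [sub_smul]
    rw [Finset.sum_sub_distrib, hc, sub_self]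
  have := (Fintype.linearIndependent_iff.mp h.li) (fun i => c i - c' i) h1 i
  exact sub_eq_zero.mp this

/-- Reindexing a sum by the involution. -/
theorem NF.sum_σ (h : NF σ N w) {M : Type*} [AddCommMonoid M] (f : ι → M) :
    ∑ i, f (σ i) = ∑ i, f i :=
  Equiv.sum_comp (Function.Involutive.toPerm σ h.hσ) f

theorem NF.comm_imp (h : NF σ N w) (g : Matrix.symplecticGroup (Fin m) F)
    (hcomm : ∀ z, g.1 *ᵥ N z = N (g.1 *ᵥ z)) :
    ∃ b : Matrix ι ι F, b * Pm F σ * bᵀ = Pm F σ ∧
      ∀ j, g.1 *ᵥ N (w j) = ∑ i, b i j • N (w i) := by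
  have hb1 : ∀ j, g.1 *ᵥ N (w j) = ∑ i, sympB m (g.1 *ᵥ w j) (N (w (σ i))) • N (w i) := by
    intro j
    rw [hcomm, h.star (g.1 *ᵥ w j)]
  refine ⟨Matrix.of fun i j => sympB m (g.1 *ᵥ w j) (N (w (σ i))), ?_, hb1⟩
  apply orth_comm σ h.hσ
  ext i j
  rw [mul_Pm_apply, Pm_apply]
  simp only [Matrix.transpose_apply, Matrix.of_apply, h.hσ]
  have h1 : sympB m (g.1 *ᵥ w i) (g.1 *ᵥ N (w j)) = if j = σ i then 1 else 0 := by
    rw [sp_isom, h.hv]
  rw [← h1, hb1 j, map_sum]
  refine (h.sum_σ (fun l => sympB m (g.1 *ᵥ w i) (N (w (σ l))) *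
    sympB m (g.1 *ᵥ w j) (N (w l)))).symm.trans ?_
  apply Finset.sum_congr rfl
  intro l _
  simp only [h.hσ]
  rw [map_smul, smul_eq_mul, mul_comm]

theorem NF.comm_of (h : NF σ N w) (g : Matrix.symplecticGroup (Fin m) F) (b : Matrix ι ι F)
    (hb : b * Pm F σ * bᵀ = Pm F σ) (hg : ∀ j, g.1 *ᵥ N (w j) = ∑ i, b i j • N (w i))
    (z : Fin m ⊕ Fin m → F) : g.1 *ᵥ N z = N (g.1 *ᵥ z) := by
  have hb' : ∀ p l, ∑ i, b p i * b l (σ i) = if l = σ p then 1 else 0 := by
    intro p l
    have := congrFun (congrFun hb p) l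
    rw [mul_Pm_apply, Pm_apply] at this
    simpa [Matrix.transpose_apply] using this
  -- `X (σ l)` in terms of the `g X i`
  have hX : ∀ l, N (w (σ l)) = ∑ i, b l (σ i) • g.1 *ᵥ N (w i) := by
    intro l
    simp only [hg, Finset.smul_sum, smul_smul]
    rw [Finset.sum_comm]
    simp only [← Finset.sum_smul]
    have e : ∀ p, ∑ i, b l (σ i) * b p i = if l = σ p then 1 else 0 := by
      intro p
      rw [← hb' p l]
      exact Finset.sum_congr rfl (fun i _ => mul_comm _ _)
    simp only [e, ite_smul, one_smul, zero_smul]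
    rw [Finset.sum_eq_single (σ l)]
    · rw [h.hσ, if_pos rfl]
    · intro p _ hp
      rw [if_neg (fun h' => hp (by rw [h', h.hσ]))]
    · intro h'
      exact absurd (Finset.mem_univ _) h'
  have hdual : ∀ l, sympB m (g.1 *ᵥ z) (N (w (σ l))) = ∑ i, b l i * sympB m z (N (w (σ i))) := by
    intro l
    rw [hX l, map_sum, ← h.sum_σ (fun i => b l i * sympB m z (N (w (σ i))))]
    apply Finset.sum_congr rfl
    intro i _
    rw [map_smul, smul_eq_mul, sp_isom, h.hσ]
  rw [h.star (g.1 *ᵥ z), h.star z, Matrix.mulVec_sum]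
  simp only [Matrix.mulVec_smul, hg, hdual, Finset.smul_sum, Finset.sum_smul, smul_smul]
  rw [Finset.sum_comm]
  apply Finset.sum_congr rfl
  intro l _
  apply Finset.sum_congr rfl
  intro i _
  rw [mul_comm]

theorem NF.fr_isFr (h : NF σ N w) (b : Matrix ι ι F) (hb : b * Pm F σ * bᵀ = Pm F σ) :
    IsFr (fun j => ∑ i, b i j • N (w i)) := by
  constructor
  · rw [Fintype.linearIndependent_iff]
    intro c hc
    have h1 : ∑ i, (b *ᵥ c) i • N (w i) = ∑ i, (0 : ι → F) i • N (w i) := by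
      simp only [Pi.zero_apply, zero_smul, Finset.sum_const_zero]
      rw [← hc]
      simp only [Finset.smul_sum, smul_smul, Matrix.mulVec, dotProduct, Finset.sum_smul]
      rw [Finset.sum_comm]
      apply Finset.sum_congr rfl
      intro j _
      apply Finset.sum_congr rfl
      intro i _
      rw [mul_comm]
    have h2 : b *ᵥ c = 0 := h.coeff _ _ h1
    have h3 : b * (Pm F σ * bᵀ * Pm F σ) = 1 := by
      rw [← Matrix.mul_assoc, ← Matrix.mul_assoc, hb, Pm_mul_self σ h.hσ]
    have h4 : (Pm F σ * bᵀ * Pm F σ) * b = 1 := mul_eq_one_comm.mp h3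
    have h5 : c = (Pm F σ * bᵀ * Pm F σ) *ᵥ (b *ᵥ c) := by
      rw [Matrix.mulVec_mulVec, h4, Matrix.one_mulVec]
    intro j
    rw [h5, h2, Matrix.mulVec_zero]
    rfl
  · intro j k
    simp only [map_sum, map_smul, LinearMap.sum_apply, LinearMap.smul_apply, h.iso, smul_zero,
      Finset.sum_const_zero]

/-- The centraliser of `N` is counted by `O(P)` and the pointwise stabiliser of the frame. -/
theorem NF.cent_card [Finite F] (h : NF σ N w) (H : Subgroup (Matrix.symplecticGroup (Fin m) F))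
    (hH : ∀ g, g ∈ H ↔ ∀ z, g.1 *ᵥ N z = N (g.1 *ᵥ z)) :
    Nat.card H = Nat.card {b : Matrix ι ι F // b * Pm F σ * bᵀ = Pm F σ} *
      Nat.card {g : Matrix.symplecticGroup (Fin m) F // ∀ j, g.1 *ᵥ N (w j) = N (w j)} := by
  have hone : (1 : Matrix ι ι F) * Pm F σ * (1 : Matrix ι ι F)ᵀ = Pm F σ := by simp
  have hfix : ∀ g : Matrix.symplecticGroup (Fin m) F, (∀ j, g.1 *ᵥ N (w j) = N (w j)) → g ∈ H := by
    intro g hg
    rw [hH]
    refine h.comm_of g 1 hone (fun j => ?_)
    rw [hg j]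
    simp [Matrix.one_apply, ite_smul]
  have hcard := card_fiber_prod (G := H) (fun g => fun j => g.1.1 *ᵥ N (w j))
    {g | ∀ j, g.1.1 *ᵥ N (w j) = N (w j)} ?_
  · rw [hcard]
    congr 1
    · have hrange : Set.range (fun (g : H) => fun j => g.1.1 *ᵥ N (w j)) =
          Set.range (fun (b : {b : Matrix ι ι F // b * Pm F σ * bᵀ = Pm F σ}) =>
            fun j => ∑ i, b.1 i j • N (w i)) := by
        ext x
        constructor
        · rintro ⟨g, rfl⟩
          obtain ⟨b, hb, hg⟩ := h.comm_imp g.1 ((hH g.1).mp g.2)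
          exact ⟨⟨b, hb⟩, (funext hg).symm⟩
        · rintro ⟨⟨b, hb⟩, rfl⟩
          obtain ⟨g, hg⟩ := witt_fr _ _ h.isFr (h.fr_isFr b hb)
          have hgH : g ∈ H := by
            rw [hH]
            exact h.comm_of g b hb hg
          exact ⟨⟨g, hgH⟩, funext hg⟩
      rw [hrange]
      apply Nat.card_range_of_injective
      intro b b' hbb
      apply Subtype.ext
      ext i j
      have := congrFun hbb j
      exact congrFun (h.coeff (fun i => b.1 i j) (fun i => b'.1 i j) this) i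
    · refine Nat.card_congr ?_
      exact
        { toFun := fun k => ⟨k.1.1, k.2⟩
          invFun := fun g => ⟨⟨g.1, hfix g.1 g.2⟩, g.2⟩
          left_inv := fun k => rfl
          right_inv := fun g => rfl }
  · intro g k
    constructor
    · intro hgk j
      have := congrFun hgk j
      show (g.1⁻¹ * k.1).1 *ᵥ N (w j) = N (w j)
      rw [sp_mul_mulVec, ← this, sp_inv_mulVec]
    · intro hK
      funext j
      have h1 : (g.1⁻¹ * k.1).1 *ᵥ N (w j) = N (w j) := hK j
      rw [sp_mul_mulVec] at h1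
      have h2 := congrArg (fun z => g.1.1 *ᵥ z) h1
      simp only [sp_mulVec_inv] at h2
      exact h2.symm

end main

end Cfsg.Agent.Lib.Helper51.SpCent
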