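import Mathlib
import Cfsg.Agent.Lib.Helper51.SpCent
import Cfsg.Agent.Lib.Helper51.SpOrth
import Cfsg.Agent.Lib.Helper51.SpInvArith
import Cfsg.Agent.Lib.Helper44.InvSp
import Cfsg.Agent.S0245

/-!
# Centraliser orders of involutions of `Sp_2m(q)`, `q` even (helper51)

`cent_alt`, `cent_odd`, `cent_even`: the three Aschbacher–Seitz types `a_s`, `b_s`, `c_s`.
-/

set_option autoImplicit false

namespace Cfsg.Agent.Lib.Helper51.SpInvMain

open Module Matrix Cfsg.Agent.Lib.Helper18 Cfsg.Agent.Lib.Helper51.SpFrames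
  Cfsg.Agent.Lib.Helper51.SpCent Cfsg.Agent.Lib.Helper44

variable {F : Type*} [Field F] [Fintype F] [CharP F 2] {m : ℕ}

theorem mem_cent_iff (t g : Matrix.symplecticGroup (Fin m) F) :
    g ∈ Subgroup.centralizer ({t} : Set (Matrix.symplecticGroup (Fin m) F)) ↔
      ∀ z, g.1 *ᵥ (t.1 - 1).mulVecLin z = (t.1 - 1).mulVecLin (g.1 *ᵥ z) := by
  rw [Subgroup.mem_centralizer_singleton_iff]
  constructor
  · intro h z
    have h1 : g.1 * t.1 = t.1 * g.1 := congrArg Subtype.val h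
    rw [Matrix.mulVecLin_apply, Matrix.mulVecLin_apply, Matrix.mulVec_mulVec,
      Matrix.mulVec_mulVec, Matrix.mul_sub, Matrix.sub_mul, h1, Matrix.mul_one, Matrix.one_mul]
  · intro h
    apply Subtype.ext
    show g.1 * t.1 = t.1 * g.1
    have h2 : g.1 * (t.1 - 1) = (t.1 - 1) * g.1 := by
      apply Matrix.mulVec_injective
      funext z
      rw [← Matrix.mulVec_mulVec, ← Matrix.mulVec_mulVec]
      exact h z
    rw [Matrix.mul_sub, Matrix.sub_mul, Matrix.mul_one, Matrix.one_mul] at h2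
    exact sub_left_injective h2

theorem cent_mul (t : Matrix.symplecticGroup (Fin m) F) {ι : Type*} [Fintype ι]
    [DecidableEq ι] (σ : ι → ι) (w : ι → (Fin m ⊕ Fin m → F))
    (h : NF σ (t.1 - 1).mulVecLin w) :
    Nat.card (Subgroup.centralizer ({t} : Set (Matrix.symplecticGroup (Fin m) F))) *
        ∏ j ∈ Finset.range (Fintype.card ι), (Fintype.card F ^ (2 * m - j) - Fintype.card F ^ j)
      = Nat.card {b : Matrix ι ι F // b * Pm F σ * bᵀ = Pm F σ} *
        Nat.card (Matrix.symplecticGroup (Fin m) F) := by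
  rw [h.cent_card _ (mem_cent_iff t), card_stab_mul _ h.isFr]
  ring

theorem Pm_swap (k : ℕ) : Pm F (Sum.swap : Fin k ⊕ Fin k → Fin k ⊕ Fin k) = Matrix.J (Fin k) F := by
  ext i j
  rcases i with i | i <;> rcases j with j | j <;>
    simp [Pm_apply, Matrix.J, Matrix.one_apply, CharTwo.neg_eq, eq_comm]

theorem Pm_id (k : ℕ) : Pm F (id : Fin k → Fin k) = 1 := by
  ext i j
  simp [Pm_apply, Matrix.one_apply, eq_comm]

/-- Generic form: everything reduced to the order of `O(P)`. -/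
theorem cent_gen {q : ℕ} (hF : Fintype.card F = q) (t : Matrix.symplecticGroup (Fin m) F)
    (ht : t * t = 1) {ι : Type*} [Fintype ι] [DecidableEq ι] (σ : ι → ι) (hσ : ∀ i, σ (σ i) = i)
    (w : ι → (Fin m ⊕ Fin m → F))
    (hv : ∀ i j, sympB m (w i) ((t.1 - 1).mulVecLin (w j)) = if j = σ i then 1 else 0)
    (hr : ∀ x y, sympB m (x - ∑ i, sympB m x ((t.1 - 1).mulVecLin (w (σ i))) • w i)
      ((t.1 - 1).mulVecLin y) = 0) :
    Fintype.card ι = (t.1 - 1).rank ∧ (t.1 - 1).rank ≤ m ∧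
    Nat.card (Subgroup.centralizer ({t} : Set (Matrix.symplecticGroup (Fin m) F))) =
      q ^ (2 * m * (t.1 - 1).rank - (3 * (t.1 - 1).rank ^ 2 - (t.1 - 1).rank) / 2) *
        Nat.card {b : Matrix ι ι F // b * Pm F σ * bᵀ = Pm F σ} *
        (q ^ ((m - (t.1 - 1).rank) ^ 2) *
          ∏ i ∈ Finset.range (m - (t.1 - 1).rank), (q ^ (2 * (i + 1)) - 1)) := by
  have h2 : (2 : F) = 0 := CharTwo.two_eq_zero
  obtain ⟨hN, hadj⟩ := sp_inv_data h2 t ht
  have hnf : NF σ (t.1 - 1).mulVecLin w := ⟨hσ, hadj, hN, hv, hr⟩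
  have hcard : Fintype.card ι = (t.1 - 1).rank :=
    Cfsg.Agent.S2166.card_eq_finrank_range σ hσ (sympB_nondegenerate m) _ hadj w hv hr
  have hle : (t.1 - 1).rank ≤ m := sp_rank_le h2 t ht
  refine ⟨hcard, hle, ?_⟩
  have hq : 2 ≤ q := by
    rw [← hF]
    exact Fintype.one_lt_card
  have hmul := cent_mul t σ w hnf
  rw [hcard, hF, Cfsg.Agent.S0245.result hF m] at hmul
  exact Cfsg.Agent.Lib.Helper51.SpInvArith.main q m _ hq hle _ _ hmul

end Cfsg.Agent.Lib.Helper51.SpInvMain
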