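import Mathlib
import Cfsg.Agent.Lib.Helper54.BalA
import Cfsg.Agent.Lib.Helper54.OUO2

set_option autoImplicit false

namespace Cfsg.Agent.Lib.Helper51.BalD

open Module QuadraticMap Matrix
open Cfsg Cfsg.Agent.Lib.Helper51 Cfsg.Agent.Lib.Helper51.GammaO Cfsg.Agent.Lib.Helper52
open Cfsg.Agent.Lib.Helper65.LS2 Cfsg.Agent.Lib.Helper54.Bal

variable {ι : Type} [Fintype ι] [DecidableEq ι] {F : Type*} [Field F]

theorem exists_descent (σ : RingAut F) (Q : QuadraticForm F (ι → F))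
    (hσ : ∀ v : ι → F, Q (fun i => σ (v i)) = σ (Q v)) (h2 : (2 : F) ≠ 0)
    (hw : ∃ w : ι → ↥(fixSub σ), Q10 σ Q hσ w ≠ 0)
    (γ : ↥(GO ⇑Q))
    (hG : ((γ.1.left : GL ι F) : Matrix ι ι F).map σ = ((γ.1.left : GL ι F) : Matrix ι ι F))
    (hτ : γ.1.right * σ = σ * γ.1.right) :
    ∃ γ0 : ↥(GO ⇑(Q10 σ Q hσ)),
      bcGL σ γ0.1.left = γ.1.left ∧
      (∀ a : ↥(fixSub σ), ((γ0.1.right a : ↥(fixSub σ)) : F) = γ.1.right (a : F)) ∧
      ∀ t : ↥(Omega ↥(fixSub σ) ⇑(Q10 σ Q hσ)),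
        Theta ⇑Q γ (psi σ Q hσ h2 t) = psi σ Q hσ h2 (actOmega ⇑(Q10 σ Q hσ) γ0 t) := by
  obtain ⟨G0, hG0⟩ := exists_bcGL σ γ.1.left hG
  have hτ1 : ∀ a : F, γ.1.right (σ a) = σ (γ.1.right a) := by
    intro a
    have := congrArg (fun e : RingAut F => e a) hτ
    simpa [RingAut.mul_apply] using this
  have hτ2 : ∀ a : F, (γ.1.right : F ≃+* F).symm (σ a) = σ ((γ.1.right : F ≃+* F).symm a) := by
    intro a
    apply (γ.1.right : F ≃+* F).injective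
    rw [RingEquiv.apply_symm_apply, hτ1, RingEquiv.apply_symm_apply]
  let τ0 : RingAut ↥(fixSub σ) :=
    { toFun := fun a => ⟨γ.1.right (a : F), by
        show σ (γ.1.right (a : F)) = γ.1.right (a : F)
        rw [← hτ1]
        exact congrArg _ a.2⟩
      invFun := fun a => ⟨(γ.1.right : F ≃+* F).symm (a : F), by
        show σ ((γ.1.right : F ≃+* F).symm (a : F)) = (γ.1.right : F ≃+* F).symm (a : F)
        rw [← hτ2]
        exact congrArg _ a.2⟩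
      left_inv := fun a => Subtype.ext ((γ.1.right : F ≃+* F).symm_apply_apply _)
      right_inv := fun a => Subtype.ext ((γ.1.right : F ≃+* F).apply_symm_apply _)
      map_mul' := fun a b => Subtype.ext (map_mul (γ.1.right : F ≃+* F) _ _)
      map_add' := fun a b => Subtype.ext (map_add (γ.1.right : F ≃+* F) _ _) }
  have hτ0 : ∀ a : ↥(fixSub σ), ((τ0 a : ↥(fixSub σ)) : F) = γ.1.right (a : F) := fun a => rfl
  obtain ⟨γ0', hγ0'⟩ : ∃ γ0' : SGL ι ↥(fixSub σ), γ0' = ⟨G0, τ0⟩ := ⟨_, rfl⟩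
  have hl : γ0'.left = G0 := by rw [hγ0']
  have hr : γ0'.right = τ0 := by rw [hγ0']
  have hup : ∀ w : ι → ↥(fixSub σ), up σ (sact γ0' w) = sact γ.1 (up σ w) := by
    intro w
    unfold sact
    rw [← bcGL_mulVec, hl, hG0, hr]
    rfl
  obtain ⟨c, hc⟩ := (mem_GO ⇑Q γ.1).mp γ.2
  have hQ0 : ∀ w : ι → ↥(fixSub σ), ((Q10 σ Q hσ (sact γ0' w) : ↥(fixSub σ)) : F) =
      (c : F) * ((τ0 (Q10 σ Q hσ w) : ↥(fixSub σ)) : F) := by
    intro w
    rw [coe_Q10, hup, hc, hτ0, coe_Q10]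
  obtain ⟨w1, hw1⟩ := hw
  have hτw : τ0 (Q10 σ Q hσ w1) ≠ 0 := by
    intro h
    apply hw1
    exact (map_eq_zero_iff τ0 τ0.injective).mp h
  obtain ⟨d, hd⟩ : ∃ d : ↥(fixSub σ), (d : F) = c := by
    refine ⟨Q10 σ Q hσ (sact γ0' w1) / τ0 (Q10 σ Q hσ w1), ?_⟩
    have h0 : ((τ0 (Q10 σ Q hσ w1) : ↥(fixSub σ)) : F) ≠ 0 := fun h => hτw (Subtype.ext h)
    rw [Subfield.coe_div, hQ0 w1, mul_div_assoc, div_self h0, mul_one]
  have hd0 : d ≠ 0 := by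
    intro h
    rw [h] at hd
    exact c.ne_zero hd.symm
  have hmem : γ0' ∈ GO ⇑(Q10 σ Q hσ) := by
    rw [mem_GO]
    refine ⟨Units.mk0 d hd0, fun w => ?_⟩
    apply Subtype.ext
    rw [hQ0 w, Subfield.coe_mul, Units.val_mk0, hd, hr]
  refine ⟨⟨γ0', hmem⟩, by rw [hl, hG0], fun a => by rw [hr, hτ0], ?_⟩
  intro t
  rw [psi_apply, psi_apply, Theta_mk]
  congr 1
  apply Subtype.ext
  apply Subtype.ext
  rw [actOmega_coe, bcΩ_coe, bcΩ_coe, actOmega_coe, actGL_apply, actGL_apply, map_mul, map_mul,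
    map_inv]
  have e : bcGL σ (glMap γ0'.right
      ((t : ↥(isometryGroup ↥(fixSub σ) ⇑(Q10 σ Q hσ))) : GL ι ↥(fixSub σ))) =
      glMap γ.1.right (bcGL σ
        ((t : ↥(isometryGroup ↥(fixSub σ) ⇑(Q10 σ Q hσ))) : GL ι ↥(fixSub σ))) := by
    apply Units.ext
    ext i j
    rw [bcGL_apply, glMap_coe, glMap_coe, Matrix.map_apply, Matrix.map_apply, bcGL_apply, hr]
    rfl
  show γ.1.left * _ * γ.1.left⁻¹ = bcGL σ γ0'.left * bcGL σ (glMap γ0'.right _) * (bcGL σ γ0'.left)⁻¹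
  rw [e, hl, hG0]

end Cfsg.Agent.Lib.Helper51.BalD
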