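import Mathlib
import Cfsg.Agent.Lib.Helper40.SL2Gen

/-!
# S3009 (helper51): recognition of the natural `SL₂(F)`-module — shared definitions

`IsIrrAct act` packages the hypotheses on an action of `SL₂(F)` on an additive group `M`, given by a
bare function `act : SL₂(F) → M → M`: it is an action by additive maps, it is irreducible (the only
invariant additive subgroups are `⊥` and `⊤`) and it is not trivial.
-/

set_option autoImplicit false

namespace Cfsg.Agent.Lib.Helper51.NM

open Matrix

/-- an irreducible, nontrivial action of `SL₂(F)` on the additive group `M` by additive maps -/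
structure IsIrrAct {F : Type*} [Field F] {M : Type*} [AddCommGroup M]
    (act : SpecialLinearGroup (Fin 2) F → M → M) : Prop where
  one : ∀ m, act 1 m = m
  mul : ∀ g h m, act (g * h) m = act g (act h m)
  add : ∀ g m m', act g (m + m') = act g m + act g m'
  irr : ∀ N : AddSubgroup M, (∀ g, ∀ m ∈ N, act g m ∈ N) → N = ⊥ ∨ N = ⊤
  nt : ∃ g m, act g m ≠ m

end Cfsg.Agent.Lib.Helper51.NM
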