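import Mathlib
import Cfsg.Prelude.Def_BaumannBlocks
import Cfsg.Agent.Lib.Helper40.SL2Gen
import Cfsg.Agent.Lib.Helper51.NMDefs
import Cfsg.Agent.Lib.Helper88.NMA
import Cfsg.Agent.Lib.Helper69.NMB
import Cfsg.Agent.Lib.Helper21.NMSYL

/-!
# S3009 (helper51): recognition of the natural `SL₂(F)`-module — translation and assembly

The frozen statement is about subgroups `G`, `V` of an ambient group with `G ≅ SL₂(F)` acting on the
elementary abelian `V` by conjugation. We transport the Sylow subgroup to the upper unitriangular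
group (piece NM-SYL), turn `V` into an additive group with an action of `SL₂(F)` and apply the
pieces NM-A (a start vector) and NM-B (the equivariant bijection with `F²`).
-/

set_option autoImplicit false

namespace Cfsg.Agent.Lib.Helper51.NMMain

open Matrix Cfsg.Agent.Lib.Helper40 Cfsg.Agent.Lib.Helper51.NM
open scoped commutatorElement

set_option linter.style.haveILetI false

set_option maxHeartbeats 1600000 in
theorem main {X : Type*} [Group X] [Finite X] {p : ℕ} [Fact p.Prime] (G V : Subgroup X)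
    (hV : Cfsg.IsElementaryAbelian p V) (hGV : G ≤ Subgroup.normalizer (V : Set X))
    (F : Type) [Field F] [Fintype F] (n : ℕ) (hF : Fintype.card F = p ^ n)
    (hG : Nonempty (↥G ≃* Matrix.SpecialLinearGroup (Fin 2) F))
    (hirr : ∀ U : Subgroup X, U ≤ V → G ≤ Subgroup.normalizer (U : Set X) → U = ⊥ ∨ U = V)
    (hnt : ⁅V, G⁆ ≠ ⊥) (S : Sylow p ↥G)
    (hyp : ⁅⁅V, (S : Subgroup ↥G).map G.subtype⁆, (S : Subgroup ↥G).map G.subtype⁆ = ⊥ ∨
      Nat.card ↥V ≤ Nat.card ↥(V ⊓ Subgroup.centralizer
        (((S : Subgroup ↥G).map G.subtype : Subgroup X) : Set X)) ^ 2) :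
    Cfsg.ActsAsSL2OnSection F ⊤ G V ⊥ := by
  classical
  obtain ⟨ι⟩ := hG
  obtain ⟨g₀, hg₀⟩ := Cfsg.Agent.Lib.Helper21.NMSYL.sylow_conj n hF ι S
  -- the twisted isomorphism and its inverse
  let ρ : ↥G →* SpecialLinearGroup (Fin 2) F :=
    { toFun := fun x => g₀ * ι x * g₀⁻¹
      map_one' := by simp
      map_mul' := fun x y => by simp [mul_assoc] }
  let κ : SpecialLinearGroup (Fin 2) F → ↥G := fun g => ι.symm (g₀⁻¹ * g * g₀)
  have hρκ : ∀ g, ρ (κ g) = g := by
    intro g
    show g₀ * ι (ι.symm (g₀⁻¹ * g * g₀)) * g₀⁻¹ = g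
    rw [MulEquiv.apply_symm_apply]
    group
  have hκρ : ∀ x, κ (ρ x) = x := by
    intro x
    show ι.symm (g₀⁻¹ * (g₀ * ι x * g₀⁻¹) * g₀) = x
    rw [show g₀⁻¹ * (g₀ * ι x * g₀⁻¹) * g₀ = ι x by group, MulEquiv.symm_apply_apply]
  have hκmul : ∀ g h, κ (g * h) = κ g * κ h := by
    intro g h
    show ι.symm (g₀⁻¹ * (g * h) * g₀) = ι.symm (g₀⁻¹ * g * g₀) * ι.symm (g₀⁻¹ * h * g₀)
    rw [← map_mul]
    congr 1
    group
  have hκ1 : κ 1 = 1 := by
    show ι.symm (g₀⁻¹ * 1 * g₀) = 1
    rw [show g₀⁻¹ * 1 * g₀ = (1 : SpecialLinearGroup (Fin 2) F) by group, map_one]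
  have hκS : ∀ a : F, κ (sl2Up a) ∈ S := fun a => (hg₀ _).mpr ⟨a, hρκ _⟩
  have hSκ : ∀ s : ↥G, s ∈ S → ∃ a : F, s = κ (sl2Up a) := by
    intro s hs
    obtain ⟨a, ha⟩ := (hg₀ s).mp hs
    refine ⟨a, ?_⟩
    rw [← ha]
    exact (hκρ s).symm
  -- the module
  have hnorm : ∀ (g : ↥G) (v : X), v ∈ V → (g : X) * v * (g : X)⁻¹ ∈ V := fun g v hv =>
    ((Subgroup.mem_normalizer_iff.mp (hGV g.2)) v).mp hv
  letI : CommGroup ↥V :=
    { (inferInstance : Group ↥V) with
      mul_comm := fun a b => (isMulCommutative_iff.mp hV.1) a b }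
  let act : SpecialLinearGroup (Fin 2) F → Additive ↥V → Additive ↥V := fun g m =>
    Additive.ofMul ⟨(κ g : X) * ((Additive.toMul m : ↥V) : X) * (κ g : X)⁻¹,
      hnorm (κ g) _ (Additive.toMul m).2⟩
  have hact : ∀ g m, ((Additive.toMul (act g m) : ↥V) : X)
      = (κ g : X) * ((Additive.toMul m : ↥V) : X) * (κ g : X)⁻¹ := fun g m => rfl
  have hext : ∀ m m' : Additive ↥V,
      ((Additive.toMul m : ↥V) : X) = ((Additive.toMul m' : ↥V) : X) → m = m' :=
    fun m m' h => Additive.toMul.injective (Subtype.ext h)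
  have hadd : ∀ m m' : Additive ↥V, ((Additive.toMul (m + m') : ↥V) : X)
      = ((Additive.toMul m : ↥V) : X) * ((Additive.toMul m' : ↥V) : X) := fun m m' => rfl
  have hsub : ∀ m m' : Additive ↥V, ((Additive.toMul (m - m') : ↥V) : X)
      = ((Additive.toMul m : ↥V) : X) * ((Additive.toMul m' : ↥V) : X)⁻¹ := by
    intro m m'
    rw [toMul_sub, Subgroup.coe_div, div_eq_mul_inv]
  have hpM : ∀ m : Additive ↥V, p • m = 0 := by
    intro m
    apply hext
    rw [toMul_nsmul, Subgroup.coe_pow]
    exact hV.2 _ (Additive.toMul m).2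
  have hAct : IsIrrAct act := by
    refine ⟨?_, ?_, ?_, ?_, ?_⟩
    · intro m
      apply hext
      rw [hact, hκ1]
      simp
    · intro g h m
      apply hext
      rw [hact, hact, hact, hκmul, Subgroup.coe_mul]
      group
    · intro g m m'
      apply hext
      rw [hact, hadd, hadd, hact, hact]
      group
    · intro N hN
      let U' : Subgroup X :=
        { carrier := {x | ∃ hx : x ∈ V, Additive.ofMul (⟨x, hx⟩ : ↥V) ∈ N}
          mul_mem' := by
            rintro a b ⟨ha, ha'⟩ ⟨hb, hb'⟩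
            exact ⟨V.mul_mem ha hb, N.add_mem ha' hb'⟩
          one_mem' := ⟨V.one_mem, N.zero_mem⟩
          inv_mem' := by
            rintro a ⟨ha, ha'⟩
            exact ⟨V.inv_mem ha, N.neg_mem ha'⟩ }
      have hU'V : U' ≤ V := fun x hx => hx.1
      have key : ∀ (g : ↥G) (x : X), x ∈ U' → (g : X) * x * (g : X)⁻¹ ∈ U' := by
        rintro g x ⟨hx, hx'⟩
        refine ⟨hnorm g x hx, ?_⟩
        have h1 := hN (ρ g) _ hx'
        have e : act (ρ g) (Additive.ofMul (⟨x, hx⟩ : ↥V))
            = Additive.ofMul (⟨(g : X) * x * (g : X)⁻¹, hnorm g x hx⟩ : ↥V) := by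
          apply hext
          rw [hact, hκρ]
          rfl
        rw [e] at h1
        exact h1
      have hU'N : G ≤ Subgroup.normalizer (U' : Set X) := by
        intro g hg
        rw [Subgroup.mem_normalizer_iff]
        intro x
        constructor
        · exact key ⟨g, hg⟩ x
        · intro h
          have h2 := key (⟨g, hg⟩⁻¹ : ↥G) _ h
          have e2 : (((⟨g, hg⟩⁻¹ : ↥G) : ↥G) : X) * (g * x * g⁻¹) * (((⟨g, hg⟩⁻¹ : ↥G) : ↥G) : X)⁻¹
              = x := by
            rw [Subgroup.coe_inv]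
            show g⁻¹ * (g * x * g⁻¹) * g⁻¹⁻¹ = x
            group
          rw [e2] at h2
          exact h2
      rcases hirr U' hU'V hU'N with h0 | h1
      · left
        rw [AddSubgroup.eq_bot_iff_forall]
        intro m hm
        have h2 : ((Additive.toMul m : ↥V) : X) ∈ U' := ⟨(Additive.toMul m).2, hm⟩
        rw [h0, Subgroup.mem_bot] at h2
        apply hext
        rw [h2]
        rfl
      · right
        rw [AddSubgroup.eq_top_iff']
        intro m
        have h2 : ((Additive.toMul m : ↥V) : X) ∈ U' := by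
          rw [h1]
          exact (Additive.toMul m).2
        obtain ⟨hx, hx'⟩ := h2
        exact hx'
    · by_contra hcon
      push Not at hcon
      apply hnt
      rw [eq_bot_iff, Subgroup.commutator_le]
      intro v hv g hg
      rw [Subgroup.mem_bot]
      have h1 := hcon (ρ ⟨g, hg⟩) (Additive.ofMul (⟨v, hv⟩ : ↥V))
      have h2 : g * v * g⁻¹ = v := by
        have h3 := congrArg (fun m : Additive ↥V => ((Additive.toMul m : ↥V) : X)) h1
        simp only [hact, hκρ] at h3
        exact h3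
      have hc : g * v = v * g := mul_inv_eq_iff_eq_mul.mp h2
      rw [commutatorElement_def, ← hc]
      group
  have hyp' : (∀ (a b : F) (m : Additive ↥V),
        act (sl2Up a) (act (sl2Up b) m - m) = act (sl2Up b) m - m) ∨
      Nat.card (Additive ↥V) ≤ Nat.card {m : Additive ↥V // ∀ a : F, act (sl2Up a) m = m} ^ 2 := by
    have hκS' : ∀ a : F, ((κ (sl2Up a) : ↥G) : X) ∈ (S : Subgroup ↥G).map G.subtype :=
      fun a => Subgroup.mem_map.mpr ⟨κ (sl2Up a), hκS a, rfl⟩
    rcases hyp with h1 | h2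
    · left
      intro a b m
      apply hext
      rw [hact]
      have hc' : ((Additive.toMul (act (sl2Up b) m - m) : ↥V) : X)
          = (κ (sl2Up b) : X) * ((Additive.toMul m : ↥V) : X) * (κ (sl2Up b) : X)⁻¹
            * ((Additive.toMul m : ↥V) : X)⁻¹ := by
        rw [hsub, hact]
      rw [hc']
      have hmem : (κ (sl2Up b) : X) * ((Additive.toMul m : ↥V) : X) * (κ (sl2Up b) : X)⁻¹
            * ((Additive.toMul m : ↥V) : X)⁻¹ ∈ ⁅V, (S : Subgroup ↥G).map G.subtype⁆ := by
        have h3 : ⁅((Additive.toMul m : ↥V) : X), (κ (sl2Up b) : X)⁆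
            ∈ ⁅V, (S : Subgroup ↥G).map G.subtype⁆ :=
          Subgroup.commutator_mem_commutator (Additive.toMul m).2 (hκS' b)
        have e : (κ (sl2Up b) : X) * ((Additive.toMul m : ↥V) : X) * (κ (sl2Up b) : X)⁻¹
            * ((Additive.toMul m : ↥V) : X)⁻¹
            = ⁅((Additive.toMul m : ↥V) : X), (κ (sl2Up b) : X)⁆⁻¹ := by
          rw [commutatorElement_def]
          group
        rw [e]
        exact Subgroup.inv_mem _ h3
      have h3 : ⁅(κ (sl2Up b) : X) * ((Additive.toMul m : ↥V) : X) * (κ (sl2Up b) : X)⁻¹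
            * ((Additive.toMul m : ↥V) : X)⁻¹, (κ (sl2Up a) : X)⁆ ∈ (⊥ : Subgroup X) := by
        rw [← h1]
        exact Subgroup.commutator_mem_commutator hmem (hκS' a)
      rw [Subgroup.mem_bot, commutatorElement_def] at h3
      have h4 := mul_inv_eq_iff_eq_mul.mp (mul_inv_eq_one.mp h3)
      rw [← h4]
      group
    · right
      have e : Nat.card {m : Additive ↥V // ∀ a : F, act (sl2Up a) m = m}
          = Nat.card ↥(V ⊓ Subgroup.centralizer
            (((S : Subgroup ↥G).map G.subtype : Subgroup X) : Set X)) :=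
        Nat.card_congr
          { toFun := fun m => ⟨((Additive.toMul m.1 : ↥V) : X),
              Subgroup.mem_inf.mpr ⟨(Additive.toMul m.1).2, by
              rw [Subgroup.mem_centralizer_iff]
              intro h hh
              obtain ⟨s, hs, rfl⟩ := Subgroup.mem_map.mp hh
              obtain ⟨a, rfl⟩ := hSκ s hs
              have h3 := congrArg (fun m : Additive ↥V => ((Additive.toMul m : ↥V) : X)) (m.2 a)
              simp only [hact] at h3
              exact mul_inv_eq_iff_eq_mul.mp h3⟩⟩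
            invFun := fun x => ⟨Additive.ofMul (⟨x.1, (Subgroup.mem_inf.mp x.2).1⟩ : ↥V), by
              intro a
              apply hext
              rw [hact]
              have h3 := (Subgroup.mem_centralizer_iff.mp (Subgroup.mem_inf.mp x.2).2) _ (hκS' a)
              show (κ (sl2Up a) : X) * (x.1 : X) * (κ (sl2Up a) : X)⁻¹ = (x.1 : X)
              rw [h3]
              group⟩
            left_inv := fun m => rfl
            right_inv := fun x => rfl }
      rw [e]
      exact h2
  obtain ⟨x₀, hx₀, hlo, hup⟩ := Cfsg.Agent.Lib.Helper88.NMA.exists_start n hF hpM act hAct hyp'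
  obtain ⟨ψ, hψbij, hψadd, hψeq⟩ := Cfsg.Agent.Lib.Helper69.NMB.exists_iso act hAct x₀ hx₀ hlo hup
  have hψ0 : ψ 0 = 0 := by
    have h := hψadd 0 0
    rw [add_zero] at h
    simpa using h
  refine ⟨hGV, bot_le, ρ,
    { toFun := fun u => Multiplicative.ofAdd (ψ (Additive.ofMul u))
      map_one' := by
        show Multiplicative.ofAdd (ψ 0) = 1
        rw [hψ0]
        rfl
      map_mul' := by
        intro u v
        show Multiplicative.ofAdd (ψ (Additive.ofMul u + Additive.ofMul v)) = _
        rw [hψadd]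
        rfl }, ?_, ?_, ?_, ?_⟩
  · exact MonoidHom.range_eq_top.mpr (fun g => ⟨κ g, hρκ g⟩)
  · intro y
    obtain ⟨m, hm⟩ := hψbij.2 (Multiplicative.toAdd y)
    refine ⟨Additive.toMul m, ?_⟩
    show Multiplicative.ofAdd (ψ m) = y
    rw [hm]
    rfl
  · intro u
    rw [Subgroup.mem_bot]
    constructor
    · intro h
      have h1 : ψ (Additive.ofMul u) = ψ 0 := by
        rw [hψ0]
        exact h
      have h2 := hψbij.1 h1
      have h3 : u = 1 := h2
      rw [h3]
      rfl
    · intro h
      have h3 : u = 1 := Subtype.ext h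
      rw [h3]
      show Multiplicative.ofAdd (ψ 0) = 1
      rw [hψ0]
      rfl
  · intro e u
    refine ⟨Additive.toMul (act (ρ e) (Additive.ofMul u)), ?_, ?_⟩
    · rw [hact, hκρ]
      rfl
    · exact hψeq (ρ e) (Additive.ofMul u)

end Cfsg.Agent.Lib.Helper51.NMMain
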