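import Cfsg.Agent.Lib.Helper51.SpinIndex
import Cfsg.Agent.Lib.Helper52.ReflGen
import Cfsg.Agent.Lib.Helper51.Jordan
import Cfsg.Prelude.Def_GeometricClasses

set_option autoImplicit false
set_option linter.unusedSectionVars false

/-!
Unipotent isometries (odd characteristic) lie in Ω.
-/

namespace Cfsg.Agent.Lib.Helper51.OUnip

open Cfsg
open Cfsg.Agent.Lib.Helper51 (mem_isometryGroup_iff index_commutator_eq_four
  exists_reflList_of_closure)
open Cfsg.Agent.Lib.Helper51.Jordan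
open scoped Matrix MatrixGroups

variable {ι : Type} [Fintype ι] [DecidableEq ι] {F : Type*} [Field F] [Fintype F]

/-- In odd characteristic, an isometry of odd order lies in Ω. -/
theorem mem_commutator_of_pow (Q : QuadraticForm F (ι → F)) (h2 : (2 : F) ≠ 0)
    (hQ : (QuadraticMap.polarBilin Q).Nondegenerate) (hcard : 2 ≤ Fintype.card ι)
    {p : ℕ} (hp : Odd p) (g : isometryGroup F ⇑Q) (hg : g ^ p = 1) :
    g ∈ commutator (isometryGroup F ⇑Q) := by
  have hcardF : Fintype.card F ≠ 2 := by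
    intro h
    apply h2
    have := FiniteField.cast_card_eq_zero F
    rw [h] at this
    exact_mod_cast this
  have hgen := Cfsg.Agent.Lib.Helper52.closure_reflSet_eq_top_of_finite Q hQ (Or.inl hcardF)
  have hall := exists_reflList_of_closure Q _
    (fun g hg => Cfsg.Agent.Lib.Helper52.eq_refl_of_mem_reflSet Q hg) hgen
  have hidx := index_commutator_eq_four Q h2 hQ hcard hall
  have h4 : g ^ 4 ∈ commutator (isometryGroup F ⇑Q) := by
    have := Subgroup.pow_index_mem (commutator (isometryGroup F ⇑Q)) g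
    rwa [hidx] at this
  obtain ⟨a, b, hab⟩ : ∃ a b : ℕ, 4 * a = p * b + 1 := by
    obtain ⟨t, ht⟩ := hp
    rcases Nat.even_or_odd t with ⟨r, hr⟩ | ⟨r, hr⟩
    · exact ⟨3 * r + 1, 3, by omega⟩
    · exact ⟨r + 1, 1, by omega⟩
  have e : g = (g ^ 4) ^ a := by
    rw [← pow_mul, hab, pow_succ, pow_mul, hg, one_pow, one_mul]
  rw [e]
  exact Subgroup.pow_mem _ h4 a

/-- A matrix of Jordan type `μ` (parts at most `p`) preserving `Q` is a unipotent element of
order dividing `p` of `Ω(Q)`; it is not scalar unless `μ` consists of ones. -/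
theorem exists_unip_omega [Nonempty ι] {p : ℕ} [Fact p.Prime] [CharP F p]
    (Q : QuadraticForm F (ι → F)) (h2 : (2 : F) ≠ 0)
    (hQ : (QuadraticMap.polarBilin Q).Nondegenerate) (hcard : 2 ≤ Fintype.card ι)
    (μ : Multiset ℕ) (hμ : ∀ e ∈ μ, e ≤ p) (hsum : μ.sum = Fintype.card ι)
    (U : Matrix ι ι F) (hU : ∀ v, Q (U *ᵥ v) = Q v)
    (hk : ∀ j, kap (Matrix.toLin' (U - 1)) j = kapM μ j) :
    ∃ u : GL ι F, (u : Matrix ι ι F) = U ∧ u ∈ Cfsg.Geo.omegaGL ⇑Q ∧ u ^ p = 1 ∧
      ((∃ a ∈ μ, 2 ≤ a) → ∀ z : F, U ≠ z • (1 : Matrix ι ι F)) := by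
  have hpp : p.Prime := Fact.out
  have hpodd : Odd p := by
    rcases hpp.eq_two_or_odd' with h | h
    · exfalso
      apply h2
      have := CharP.cast_eq_zero F p
      rw [h] at this
      exact_mod_cast this
    · exact h
  have hnilL : (Matrix.toLin' (U - 1)) ^ p = 0 := by
    apply pow_zero_of_kap
    rw [hk, (kapM_eq_sum_iff μ p).mpr hμ, hsum, Module.finrank_fintype_fun_eq_card]
  have hnil : (U - 1) ^ p = 0 := by
    have : Matrix.toLin' ((U - 1) ^ p) = 0 := by rw [Matrix.toLin'_pow, hnilL]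
    exact (LinearEquiv.map_eq_zero_iff _).mp this
  have hUp : U ^ p = 1 := by
    have h := sub_pow_char_of_commute p (Commute.one_right U)
    rw [hnil, one_pow] at h
    exact sub_eq_zero.mp h.symm
  have hp1 : p - 1 + 1 = p := Nat.sub_add_cancel hpp.one_le
  obtain ⟨u, hu⟩ : ∃ u : GL ι F, (u : Matrix ι ι F) = U :=
    ⟨⟨U, U ^ (p - 1), by rw [← pow_succ', hp1, hUp], by rw [← pow_succ, hp1, hUp]⟩, rfl⟩
  have hup : u ^ p = 1 := by
    apply Units.ext
    rw [Units.val_pow_eq_pow_val, hu]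
    exact hUp
  have hmemI : u ∈ isometryGroup F ⇑Q := (mem_isometryGroup_iff Q u).mpr (by rw [hu]; exact hU)
  have hgp : (⟨u, hmemI⟩ : isometryGroup F ⇑Q) ^ p = 1 := by
    apply Subtype.ext
    exact hup
  have hmem := mem_commutator_of_pow Q h2 hQ hcard hpodd ⟨u, hmemI⟩ hgp
  refine ⟨u, hu, ?_, hup, ?_⟩
  · exact Subgroup.mem_map.mpr ⟨⟨u, hmemI⟩, hmem, rfl⟩
  · rintro ⟨a, ha, ha2⟩ z hz
    have e1 : U - 1 = (z - 1) • (1 : Matrix ι ι F) := by rw [hz, sub_smul, one_smul]
    have e2 : (z - 1) ^ p = 0 := by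
      have h3 := hnil
      rw [e1, smul_pow, one_pow] at h3
      obtain ⟨i⟩ := ‹Nonempty ι›
      have h4 := congrFun (congrFun h3 i) i
      simpa using h4
    have hz1 : z - 1 = 0 := pow_eq_zero_iff (hpp.ne_zero) |>.mp e2
    have hU1 : U - 1 = 0 := by rw [e1, hz1, zero_smul]
    have h5 := hk 1
    have h6 : kap (0 : Module.End F (ι → F)) 1 = Fintype.card ι := by
      unfold kap
      rw [pow_one, LinearMap.ker_zero, finrank_top, Module.finrank_fintype_fun_eq_card]
    rw [hU1, map_zero, h6, ← hsum] at h5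
    have h7 := (kapM_eq_sum_iff μ 1).mp h5.symm a ha
    omega

end Cfsg.Agent.Lib.Helper51.OUnip
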